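import Mathlib

/-!
# An element of order 16 and normal subgroups of odd order (helper890, S3938)

* `comm_of_free` : `s` of order 16 normalises an abelian group `V` of odd order, and 1 is the only order `w` of a
  subgroup of `V` with `16 ∣ w - 1`: then `s ^ 8` centralises `V`;
* `exists_fix_two` : a normal subgroup of even order contains an involution commuting with `s`;
* `perm_pow_eight` : a permutation `f` of at most 15 points with `f ^ 16 = 1` satisfies `f ^ 8 = 1`;
* `syl_kill` : `s` normalises a simple subgroup `N` with more than one and less than 16 Sylow `p`-subgroups: `s ^ 8 ∉ N`;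
* `kill_60`, `kill_360` : the orders 60 and 360.
-/

set_option autoImplicit false

namespace Cfsg.Agent.H890.Spr

open Subgroup

section

variable {T : Type*} [Group T]

/-- a nontrivial power of an element of order 16 has the involution among its powers -/
theorem exists_pow {s g : T} (hs : orderOf s = 16) (hg : g ∈ zpowers s) (hg1 : g ≠ 1) : ∃ m : ℕ, g ^ m = s ^ 8 := by
  have hf : IsOfFinOrder s := by
    rw [← orderOf_pos_iff, hs]; norm_num
  obtain ⟨i, hi⟩ := (hf.mem_powers_iff_mem_zpowers).2 hg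
  simp only at hi
  have key : ∀ i : Fin 16, i ≠ 0 → ∃ m : Fin 16, (i.val * m.val) % 16 = 8 := by decide
  have hi' : s ^ (i % 16) = g := by rw [← hi, ← hs, pow_mod_orderOf]
  have hne : (⟨i % 16, Nat.mod_lt _ (by norm_num)⟩ : Fin 16) ≠ 0 := by
    intro h
    have h0 : i % 16 = 0 := congrArg Fin.val h
    rw [h0, pow_zero] at hi'
    exact hg1 hi'.symm
  obtain ⟨m, hm⟩ := key _ hne
  refine ⟨m.val, ?_⟩
  rw [← hi', ← pow_mul]
  have h1 : ∀ n : ℕ, s ^ n = s ^ (n % 16) := by
    intro n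
    rw [← hs, pow_mod_orderOf]
  have hm' : (i % 16 * m.val) % 16 = 8 := hm
  rw [h1, hm']

/-- **a fixed point free action of a group of order 16** -/
theorem comm_of_free [Finite T] {s : T} (hs : orderOf s = 16) {V : Subgroup T}
    (hab : ∀ a ∈ V, ∀ b ∈ V, a * b = b * a) (hn : ∀ v ∈ V, s * v * s⁻¹ ∈ V) (hodd : ∀ v ∈ V, v * v = 1 → v = 1)
    (hcard : ∀ W : Subgroup T, W ≤ V → 16 ∣ Nat.card W - 1 → Nat.card W = 1) :
    ∀ v ∈ V, s ^ 8 * v = v * s ^ 8 := by
  classical
  have h16 : s ^ 16 = 1 := by rw [← hs, pow_orderOf_eq_one]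
  have hzz : s ^ 8 * s ^ 8 = 1 := by rw [← pow_add]; exact h16
  have hnp : ∀ g ∈ zpowers s, ∀ v ∈ V, g * v * g⁻¹ ∈ V := by
    have hs' : s ∈ normalizer (V : Set T) := by
      rw [mem_normalizer_iff]
      intro v
      refine ⟨hn v, fun h => ?_⟩
      have hinj : Function.Injective (fun y : V => (⟨s * y * s⁻¹, hn y y.2⟩ : V)) := by
        intro a b h
        have h1 := congrArg Subtype.val h
        exact Subtype.ext (by simpa using h1)
      obtain ⟨y, hy⟩ := Finite.surjective_of_injective hinj ⟨s * v * s⁻¹, h⟩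
      have h1 : s * (y : T) * s⁻¹ = s * v * s⁻¹ := congrArg Subtype.val hy
      have h2 : (y : T) = v := by simpa using h1
      rw [← h2]; exact y.2
    intro g hg v hv
    have h1 : g ∈ normalizer (V : Set T) := (zpowers_le.2 hs') hg
    exact (mem_normalizer_iff.1 h1 v).1 hv
  have hcz : ∀ g ∈ zpowers s, g * s ^ 8 = s ^ 8 * g := by
    rintro g ⟨k, rfl⟩
    simp only
    rw [← zpow_natCast, ← zpow_add, ← zpow_add, add_comm]
  -- the elements of `V` inverted by `s ^ 8`
  let W : Subgroup T :=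
    { carrier := {v | v ∈ V ∧ s ^ 8 * v * (s ^ 8)⁻¹ = v⁻¹}
      one_mem' := ⟨V.one_mem, by group⟩
      mul_mem' := by
        rintro a b ⟨ha, ha'⟩ ⟨hb, hb'⟩
        refine ⟨V.mul_mem ha hb, ?_⟩
        have e : s ^ 8 * (a * b) * (s ^ 8)⁻¹ = (s ^ 8 * a * (s ^ 8)⁻¹) * (s ^ 8 * b * (s ^ 8)⁻¹) := by group
        rw [e, ha', hb', hab a ha b hb, mul_inv_rev]
      inv_mem' := by
        rintro a ⟨ha, ha'⟩
        refine ⟨V.inv_mem ha, ?_⟩
        have e : s ^ 8 * a⁻¹ * (s ^ 8)⁻¹ = (s ^ 8 * a * (s ^ 8)⁻¹)⁻¹ := by group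
        rw [e, ha'] }
  have hW : ∀ v, v ∈ W ↔ v ∈ V ∧ s ^ 8 * v * (s ^ 8)⁻¹ = v⁻¹ := fun v => Iff.rfl
  have hWn : ∀ g ∈ zpowers s, ∀ v ∈ W, g * v * g⁻¹ ∈ W := by
    intro g hg v hv
    obtain ⟨h1, h2⟩ := (hW v).1 hv
    refine (hW _).2 ⟨hnp g hg v h1, ?_⟩
    have h3 := hcz g hg
    have e : s ^ 8 * (g * v * g⁻¹) * (s ^ 8)⁻¹ = g * (s ^ 8 * v * (s ^ 8)⁻¹) * g⁻¹ := by
      calc s ^ 8 * (g * v * g⁻¹) * (s ^ 8)⁻¹ = (s ^ 8 * g) * v * (s ^ 8 * g)⁻¹ := by group
        _ = (g * s ^ 8) * v * (g * s ^ 8)⁻¹ := by rw [h3]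
        _ = _ := by group
    rw [e, h2]
    group
  -- the action on the nontrivial elements
  let X := {w : W // w ≠ 1}
  let act : MulAction (zpowers s) X :=
    { smul := fun g w => ⟨⟨(g : T) * ((w : W) : T) * (g : T)⁻¹, hWn g g.2 _ w.1.2⟩, fun h => w.2 (by
        have h1 : (g : T) * ((w : W) : T) * (g : T)⁻¹ = 1 := congrArg Subtype.val h
        apply Subtype.ext
        show ((w : W) : T) = 1
        have h2 : ((w : W) : T) = (g : T)⁻¹ * ((g : T) * ((w : W) : T) * (g : T)⁻¹) * g := by group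
        rw [h2, h1]; group)⟩
      one_smul := fun w => Subtype.ext (Subtype.ext (by
        show ((1 : zpowers s) : T) * ((w : W) : T) * ((1 : zpowers s) : T)⁻¹ = ((w : W) : T)
        simp))
      mul_smul := fun g g' w => Subtype.ext (Subtype.ext (by
        show ((g * g' : zpowers s) : T) * ((w : W) : T) * ((g * g' : zpowers s) : T)⁻¹ =
          (g : T) * ((g' : T) * ((w : W) : T) * (g' : T)⁻¹) * (g : T)⁻¹
        rw [Subgroup.coe_mul]; group)) }
  have hst : ∀ w : X, MulAction.stabilizer (zpowers s) w = ⊥ := by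
    intro w
    rw [eq_bot_iff]
    intro g hg
    rw [mem_bot]
    by_contra hg1
    have hg1' : (g : T) ≠ 1 := fun h => hg1 (Subtype.ext h)
    have h1 : g • w = w := hg
    have h2 : (g : T) * ((w : W) : T) * (g : T)⁻¹ = ((w : W) : T) :=
      congrArg (fun x : X => ((x : W) : T)) h1
    have h3 : Commute (g : T) ((w : W) : T) := mul_inv_eq_iff_eq_mul.1 h2
    obtain ⟨m, hm⟩ := exists_pow hs g.2 hg1'
    have h4 : Commute (s ^ 8) ((w : W) : T) := by rw [← hm]; exact h3.pow_left m
    have h5 := ((hW _).1 w.1.2).2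
    rw [h4.eq, mul_inv_cancel_right] at h5
    have h6 : ((w : W) : T) * ((w : W) : T) = 1 := by
      nth_rewrite 2 [h5]
      exact mul_inv_cancel _
    exact w.2 (Subtype.ext (hodd _ ((hW _).1 w.1.2).1 h6))
  have h1 : Nat.card X = Nat.card (Quotient (MulAction.orbitRel (zpowers s) X)) * 16 := by
    have h2 := Nat.card_congr (MulAction.selfEquivOrbitsQuotientProd hst)
    rw [Nat.card_prod, Nat.card_zpowers, hs] at h2
    exact h2
  have h2 : Nat.card W = Nat.card X + 1 := by
    have h3 : Nat.card W = Nat.card {w : W // w ≠ 1} + Nat.card {w : W // ¬ w ≠ 1} := by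
      rw [← Nat.card_sum]
      exact Nat.card_congr (Equiv.sumCompl _).symm
    have h4 : Nat.card {w : W // ¬ w ≠ 1} = 1 := by
      rw [Nat.card_eq_one_iff_unique]
      exact ⟨⟨fun a b => Subtype.ext ((not_not.1 a.2).trans (not_not.1 b.2).symm)⟩, ⟨⟨1, fun h => h rfl⟩⟩⟩
    rw [h3, h4]
  have h3 : Nat.card W = 1 := hcard W (fun v hv => ((hW v).1 hv).1) (by
    rw [h2, Nat.add_sub_cancel, h1]
    exact dvd_mul_left _ _)
  have h4 : W = ⊥ := Subgroup.card_eq_one.1 h3
  intro v hv
  have hz : s ^ 8 ∈ zpowers s := Subgroup.npow_mem_zpowers s 8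
  have h5 : v⁻¹ * (s ^ 8 * v * (s ^ 8)⁻¹) ∈ W := by
    refine (hW _).2 ⟨V.mul_mem (V.inv_mem hv) (hnp _ hz v hv), ?_⟩
    have h6 : (s ^ 8)⁻¹ = s ^ 8 := inv_eq_of_mul_eq_one_right hzz
    rw [h6]
    have e : s ^ 8 * (v⁻¹ * (s ^ 8 * v * s ^ 8)) * s ^ 8 = s ^ 8 * v⁻¹ * s ^ 8 * v * (s ^ 8 * s ^ 8) := by
      simp only [mul_assoc]
    rw [e, hzz, mul_one]
    have e2 : (v⁻¹ * (s ^ 8 * v * s ^ 8))⁻¹ = (s ^ 8)⁻¹ * v⁻¹ * (s ^ 8)⁻¹ * v := by group
    rw [e2, h6]
  rw [h4, mem_bot, inv_mul_eq_one] at h5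
  have h6 : s ^ 8 * v = (s ^ 8 * v * (s ^ 8)⁻¹) * s ^ 8 := by group
  rw [h6, ← h5]

/-- **involutions fixed by a 2-element** -/
theorem exists_fix_two [Finite T] {s : T} (hs : orderOf s = 16) {N : Subgroup T} (hN : ∀ v ∈ N, s * v * s⁻¹ ∈ N)
    (h2 : 2 ∣ Nat.card N) : ∃ c ∈ N, c * c = 1 ∧ c ≠ 1 ∧ c * s = s * c := by
  have hf2 : Fact (Nat.Prime 2) := ⟨Nat.prime_two⟩
  have hs' : s ∈ normalizer (N : Set T) := by
    rw [mem_normalizer_iff]
    intro v
    refine ⟨hN v, fun h => ?_⟩
    have hinj : Function.Injective (fun y : N => (⟨s * y * s⁻¹, hN y y.2⟩ : N)) := by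
      intro a b h
      have h1 := congrArg Subtype.val h
      exact Subtype.ext (by simpa using h1)
    obtain ⟨y, hy⟩ := Finite.surjective_of_injective hinj ⟨s * v * s⁻¹, h⟩
    have h1 : s * (y : T) * s⁻¹ = s * v * s⁻¹ := congrArg Subtype.val hy
    have h2 : (y : T) = v := by simpa using h1
    rw [← h2]; exact y.2
  have hn' : zpowers s ≤ normalizer (N : Set T) := by rwa [zpowers_le]
  let act : MulAction ↥(zpowers s) ↥N :=
    { smul := fun z y => ⟨(z : T) * y * (z : T)⁻¹, (mem_normalizer_iff.1 (hn' z.2) y).1 y.2⟩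
      one_smul := fun y => Subtype.ext (by show ((1 : ↥(zpowers s)) : T) * y * ((1 : ↥(zpowers s)) : T)⁻¹ = y; simp)
      mul_smul := fun z z' y => Subtype.ext (by
        show ((z * z' : ↥(zpowers s)) : T) * y * ((z * z' : ↥(zpowers s)) : T)⁻¹ =
          (z : T) * ((z' : T) * y * (z' : T)⁻¹) * (z : T)⁻¹
        simp [mul_assoc]) }
  have hlg : IsPGroup 2 ↥(zpowers s) := IsPGroup.of_card (n := 4) (by rw [Nat.card_zpowers, hs]; norm_num)
  have h1 := hlg.card_modEq_card_fixedPoints (↥N)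
  -- the fixed points form a subgroup
  let C : Subgroup T := N ⊓ centralizer {s}
  have hfix : Nat.card (MulAction.fixedPoints ↥(zpowers s) ↥N) = Nat.card C := by
    refine Nat.card_congr
      { toFun := fun y => ⟨((y : ↥N) : T), (y : ↥N).2, ?_⟩
        invFun := fun c => ⟨⟨(c : T), c.2.1⟩, ?_⟩
        left_inv := fun y => rfl
        right_inv := fun c => rfl }
    · apply mem_centralizer_singleton_iff.2
      have h4 := congrArg Subtype.val (y.2 ⟨s, mem_zpowers s⟩)
      have h5 : s * ((y : ↥N) : T) * s⁻¹ = ((y : ↥N) : T) := h4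
      exact (mul_inv_eq_iff_eq_mul.1 h5).symm
    · rintro ⟨z, k, rfl⟩
      apply Subtype.ext
      show s ^ k * (c : T) * (s ^ k)⁻¹ = c
      have h3 : Commute s (c : T) := (mem_centralizer_singleton_iff.1 c.2.2).symm
      rw [(h3.zpow_left k).eq, mul_inv_cancel_right]
  have h3 : 2 ∣ Nat.card C := by
    rw [← hfix]
    exact (Nat.modEq_zero_iff_dvd.1 (h1.symm.trans (Nat.modEq_zero_iff_dvd.2 h2)))
  obtain ⟨c, hc⟩ := exists_prime_orderOf_dvd_card' (G := C) 2 h3
  have hc' : orderOf (c : T) = 2 := by rw [Subgroup.orderOf_coe, hc]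
  refine ⟨c, c.2.1, ?_, ?_, mem_centralizer_singleton_iff.1 c.2.2⟩
  · rw [← pow_two, ← hc', pow_orderOf_eq_one]
  · intro h
    rw [h, orderOf_one] at hc'
    norm_num at hc'

/-- 2-power order permutations of at most 15 points -/
theorem perm_pow_eight {α : Type*} [Finite α] (h : Nat.card α < 16) {f : Equiv.Perm α} (hf : f ^ 16 = 1) :
    f ^ 8 = 1 := by
  classical
  have : Fintype α := Fintype.ofFinite α
  by_contra h8
  have hp : Fact (Nat.Prime 2) := ⟨Nat.prime_two⟩
  have ho : orderOf f = 2 ^ (3 + 1) := orderOf_eq_prime_pow (p := 2) (n := 3) (by norm_num; exact h8)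
    (by norm_num; exact hf)
  have ho' : orderOf f = 16 := by rw [ho]; norm_num
  -- some point is moved by `f ^ 8`
  obtain ⟨x, hx⟩ : ∃ x, (f ^ 8) x ≠ x := by
    by_contra hcon
    push Not at hcon
    exact h8 (Equiv.ext hcon)
  have hinj : Function.Injective (fun i : Fin 16 => (f ^ i.val) x) := by
    have key : ∀ i j : Fin 16, i ≠ j → ∃ m : Fin 16, ((i.val + 16 - j.val) * m.val) % 16 = 8 := by decide
    intro i j hij
    by_contra hne
    obtain ⟨m, hm⟩ := key i j hne
    have h1 : (f ^ (i.val + 16 - j.val)) x = x := by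
      have h2 : (f ^ i.val) x = (f ^ j.val) x := hij
      have h3 : f ^ (i.val + 16 - j.val) = (f ^ j.val)⁻¹ * f ^ i.val := by
        have h4 : i.val + 16 - j.val + j.val = i.val + 16 := by omega
        rw [eq_inv_mul_iff_mul_eq, ← pow_add, add_comm, h4, pow_add, hf, mul_one]
      rw [h3, Equiv.Perm.mul_apply, h2]
      simp
    have h2 : ∀ n : ℕ, ((f ^ (i.val + 16 - j.val)) ^ n) x = x := by
      intro n
      induction n with
      | zero => simp
      | succ n ih => rw [pow_succ, Equiv.Perm.mul_apply, h1, ih]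
    have h3 := h2 m.val
    rw [← pow_mul, ← pow_mod_orderOf, ho', hm] at h3
    exact hx h3
  have h1 := Nat.card_le_card_of_injective _ hinj
  rw [Nat.card_eq_fintype_card, Fintype.card_fin] at h1
  omega

end

/-! ### few Sylow subgroups -/

variable {T : Type*} [Group T] [Finite T]

theorem syl_kill {s : T} (hs : orderOf s = 16) {N : Subgroup T} (hN : ∀ v ∈ N, s * v * s⁻¹ ∈ N)
    (hsim : IsSimpleGroup N) (hz : s ^ 8 ∈ N) {p : ℕ} [Fact p.Prime] (h1 : Nat.card (Sylow p N) ≠ 1)
    (h15 : Nat.card (Sylow p N) < 16) : False := by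
  have hs' : s ∈ normalizer (N : Set T) := by
    rw [mem_normalizer_iff]
    intro v
    refine ⟨hN v, fun h => ?_⟩
    have hinj : Function.Injective (fun y : N => (⟨s * y * s⁻¹, hN y y.2⟩ : N)) := by
      intro a b h
      have h1 := congrArg Subtype.val h
      exact Subtype.ext (by simpa using h1)
    obtain ⟨y, hy⟩ := Finite.surjective_of_injective hinj ⟨s * v * s⁻¹, h⟩
    have h1 : s * (y : T) * s⁻¹ = s * v * s⁻¹ := congrArg Subtype.val hy
    have h2 : (y : T) = v := by simpa using h1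
    rw [← h2]; exact y.2
  let φ : MulAut N := N.normalizerMonoidHom ⟨s, hs'⟩
  have hφ : φ ^ 8 = MulAut.conj (⟨s ^ 8, hz⟩ : N) := by
    ext v
    have h2 : φ ^ 8 = N.normalizerMonoidHom (⟨s, hs'⟩ ^ 8) := by rw [map_pow]
    rw [h2]
    rfl
  have hφ16 : φ ^ 16 = 1 := by
    have h2 : φ ^ 16 = N.normalizerMonoidHom (⟨s, hs'⟩ ^ 16) := by rw [map_pow]
    have h3 : (⟨s, hs'⟩ : normalizer (N : Set T)) ^ 16 = 1 := by
      apply Subtype.ext
      show s ^ 16 = 1
      rw [← hs, pow_orderOf_eq_one]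
    rw [h2, h3, map_one]
  let f : Equiv.Perm (Sylow p N) := MulAction.toPermHom (MulAut N) (Sylow p N) φ
  have hf : f ^ 16 = 1 := by
    have : f ^ 16 = MulAction.toPermHom (MulAut N) (Sylow p N) (φ ^ 16) := by rw [map_pow]
    rw [this, hφ16, map_one]
  have hf8 := perm_pow_eight h15 hf
  have hf8' : f ^ 8 = MulAction.toPermHom (MulAut N) (Sylow p N) (φ ^ 8) := by rw [map_pow]
  have key : ∀ P : Sylow p N, (⟨s ^ 8, hz⟩ : N) • P = P := by
    intro P
    have h2 := congrArg (fun g : Equiv.Perm (Sylow p N) => g P) (hf8'.symm.trans hf8)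
    rw [hφ] at h2
    exact h2
  let κ := MulAction.toPermHom N (Sylow p N)
  have hmem : (⟨s ^ 8, hz⟩ : N) ∈ κ.ker := by
    rw [MonoidHom.mem_ker]
    exact Equiv.ext fun P => key P
  have hne : (⟨s ^ 8, hz⟩ : N) ≠ 1 := by
    intro h
    have h2 : s ^ 8 = 1 := congrArg Subtype.val h
    have h3 := orderOf_dvd_of_pow_eq_one h2
    rw [hs] at h3
    revert h3; norm_num
  rcases (inferInstance : κ.ker.Normal).eq_bot_or_eq_top with h2 | h2
  · rw [h2, mem_bot] at hmem
    exact hne hmem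
  · apply h1
    rw [Nat.card_eq_one_iff_unique]
    refine ⟨⟨fun P Q => ?_⟩, inferInstance⟩
    obtain ⟨g, hg⟩ := MulAction.exists_smul_eq N P Q
    have h3 : g ∈ κ.ker := by rw [h2]; exact mem_top g
    rw [MonoidHom.mem_ker] at h3
    have h4 := congrArg (fun e : Equiv.Perm (Sylow p N) => e P) h3
    have h5 : g • P = P := h4
    rw [← h5, hg]

/-- the number of Sylow subgroups of a nonabelian simple group is not one -/
theorem card_sylow_ne_one {X : Type*} [Group X] [Finite X] [IsSimpleGroup X] (hna : ¬ ∀ a b : X, a * b = b * a)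
    {p : ℕ} [hp : Fact p.Prime] (hd : p ∣ Nat.card X) : Nat.card (Sylow p X) ≠ 1 := by
  intro h
  obtain ⟨P⟩ : Nonempty (Sylow p X) := inferInstance
  have hu : Subsingleton (Sylow p X) := (Nat.card_eq_one_iff_unique.1 h).1
  have hn : (P : Subgroup X).Normal := Sylow.normal_of_subsingleton P
  rcases hn.eq_bot_or_eq_top with h1 | h1
  · have h2 := P.ne_bot_of_dvd_card hd
    exact h2 h1
  · apply hna
    have hP : IsPGroup p X := by
      have h2 := P.2
      rw [h1] at h2
      exact h2.of_equiv Subgroup.topEquiv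
    have hnt : Nontrivial (center X) := by
      have : Nontrivial X := inferInstance
      exact hP.center_nontrivial
    rcases (inferInstance : (center X).Normal).eq_bot_or_eq_top with h3 | h3
    · rw [h3] at hnt
      exact absurd hnt (not_nontrivial _)
    · intro a b
      have : b ∈ center X := by rw [h3]; exact mem_top b
      exact mem_center_iff.1 this a

/-- order 60 -/
theorem kill_60 {s : T} (hs : orderOf s = 16) {N : Subgroup T} (hN : ∀ v ∈ N, s * v * s⁻¹ ∈ N)
    (hsim : IsSimpleGroup N) (hna : ¬ ∀ a b : N, a * b = b * a) (hz : s ^ 8 ∈ N) (hc : Nat.card N = 60) : False := by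
  have h5 : Fact (Nat.Prime 5) := ⟨Nat.prime_five⟩
  have h1 := card_sylow_ne_one (X := N) hna (p := 5) (by rw [hc]; norm_num)
  refine syl_kill hs hN hsim hz h1 ?_
  obtain ⟨P⟩ : Nonempty (Sylow 5 N) := inferInstance
  have h2 := P.card_dvd_index
  have h3 : Nat.card (Sylow 5 N) ≤ (P : Subgroup N).index := Nat.le_of_dvd (Nat.pos_of_ne_zero P.1.index_ne_zero_of_finite) h2
  have h4 := (P : Subgroup N).card_mul_index
  have h5' : 5 ∣ Nat.card (P : Subgroup N) := P.dvd_card_of_dvd_card (by rw [hc]; norm_num)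
  obtain ⟨k, hk⟩ := h5'
  rw [hk, hc] at h4
  have hk0 : 0 < k := by
    rcases Nat.eq_zero_or_pos k with h | h
    · rw [h] at hk
      have : 0 < Nat.card (P : Subgroup N) := Nat.card_pos
      omega
    · exact h
  have h6 : 5 * (k * (P : Subgroup N).index) = 5 * 12 := by rw [← mul_assoc, h4]
  have h7 : k * (P : Subgroup N).index = 12 := Nat.eq_of_mul_eq_mul_left (by norm_num) h6
  have h8 : (P : Subgroup N).index ≤ 12 := Nat.le_of_dvd (by norm_num) ⟨k, by rw [mul_comm]; exact h7.symm⟩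
  omega

/-- order 360 -/
theorem kill_360 {s : T} (hs : orderOf s = 16) {N : Subgroup T} (hN : ∀ v ∈ N, s * v * s⁻¹ ∈ N)
    (hsim : IsSimpleGroup N) (hna : ¬ ∀ a b : N, a * b = b * a) (hz : s ^ 8 ∈ N) (hc : Nat.card N = 360) : False := by
  have h3 : Fact (Nat.Prime 3) := ⟨Nat.prime_three⟩
  have h1 := card_sylow_ne_one (X := N) hna (p := 3) (by rw [hc]; norm_num)
  refine syl_kill hs hN hsim hz h1 ?_
  obtain ⟨P⟩ : Nonempty (Sylow 3 N) := inferInstance
  have hP9 : Nat.card (P : Subgroup N) = 9 := by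
    rw [P.card_eq_multiplicity, hc]
    have : (360 : ℕ) = 3 ^ 2 * 40 := by norm_num
    rw [this, Nat.factorization_mul (by norm_num) (by norm_num), Nat.factorization_pow, Finsupp.add_apply,
      Finsupp.smul_apply, Nat.Prime.factorization_self Nat.prime_three,
      Nat.factorization_eq_zero_of_not_dvd (by norm_num : ¬ 3 ∣ 40)]
    norm_num
  have hidx : (P : Subgroup N).index = 40 := by
    have h4 := (P : Subgroup N).card_mul_index
    rw [hP9, hc] at h4
    omega
  have h2 := P.card_dvd_index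
  rw [hidx] at h2
  have hmod := card_sylow_modEq_one 3 N
  by_contra hlt
  push Not at hlt
  -- the number is 40
  have h40 : Nat.card (Sylow 3 N) = 40 := by
    have h5 : Nat.card (Sylow 3 N) ≤ 40 := Nat.le_of_dvd (by norm_num) h2
    have h6 : Nat.card (Sylow 3 N) % 3 = 1 := hmod
    generalize Nat.card (Sylow 3 N) = n at h2 h5 h6 hlt
    interval_cases n <;> revert h2 h6 <;> decide
  -- Burnside
  have hnorm : Nat.card (normalizer ((P : Subgroup N) : Set N)) = 9 := by
    have h5 := (normalizer ((P : Subgroup N) : Set N)).card_mul_index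
    have h6 : Nat.card (Sylow 3 N) = (normalizer ((P : Subgroup N) : Set N)).index := P.card_eq_index_normalizer
    rw [← h6, h40, hc] at h5
    omega
  have heq : normalizer ((P : Subgroup N) : Set N) = (P : Subgroup N) := by
    symm
    apply Subgroup.eq_of_le_of_card_ge le_normalizer
    rw [hnorm, hP9]
  have hab : ∀ a ∈ (P : Subgroup N), ∀ b ∈ (P : Subgroup N), a * b = b * a := by
    have h5 := IsPGroup.isMulCommutative_of_card_eq_prime_sq (p := 3) (G := (P : Subgroup N)) (by rw [hP9]; norm_num)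
    intro a ha b hb
    exact congrArg Subtype.val (h5.is_comm.comm (⟨a, ha⟩ : (P : Subgroup N)) ⟨b, hb⟩)
  have hle : normalizer ((P : Subgroup N) : Set N) ≤ centralizer ((P : Subgroup N) : Set N) := by
    rw [heq]
    intro a ha
    rw [mem_centralizer_iff]
    intro b hb
    exact hab b hb a ha
  have hcomp := MonoidHom.ker_transferSylow_isComplement' P hle
  have h5 := hcomp.card_mul_card
  rcases (inferInstance : (MonoidHom.transferSylow P hle).ker.Normal).eq_bot_or_eq_top with h6 | h6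
  · rw [h6, Subgroup.card_bot, one_mul, hP9, hc] at h5
    norm_num at h5
  · rw [h6, Subgroup.card_top, hP9, hc] at h5
    norm_num at h5

end Cfsg.Agent.H890.Spr
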